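import Mathlib

/-!
Adding one relator to a presentation: the presentation of a quotient by a normally cyclic subgroup.
-/

set_option autoImplicit false

namespace CfsgLib.SpFourPres

theorem presented_quotient {α : Type*} {R : Set (FreeGroup α)} {S : Type*} [Group S]
    (e : PresentedGroup R ≃* S) (N : Subgroup S) [N.Normal] (c : FreeGroup α)
    (hc : e (PresentedGroup.mk R c) ∈ N)
    (hN : N ≤ Subgroup.normalClosure {e (PresentedGroup.mk R c)}) :
    Nonempty (PresentedGroup (insert c R) ≃* S ⧸ N) := by
  set g : FreeGroup α →* S := e.toMonoidHom.comp (PresentedGroup.mk R) with hg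
  have hgs : Function.Surjective g := by
    intro s
    obtain ⟨w, hw⟩ := PresentedGroup.mk_surjective R (e.symm s)
    exact ⟨w, by simp [hg, hw]⟩
  have hker : ((QuotientGroup.mk' N).comp g).ker = Subgroup.normalClosure (insert c R) := by
    apply le_antisymm
    · intro w hw
      rw [MonoidHom.mem_ker, MonoidHom.comp_apply, QuotientGroup.mk'_apply,
        QuotientGroup.eq_one_iff] at hw
      have h1 : g w ∈ Subgroup.normalClosure (g '' {c}) := by
        rw [Set.image_singleton]; exact hN hw
      rw [← Subgroup.map_normalClosure _ g hgs] at h1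
      obtain ⟨v, hv, hvw⟩ := h1
      have h2 : v⁻¹ * w ∈ Subgroup.normalClosure R := by
        have h3 : PresentedGroup.mk R (v⁻¹ * w) = 1 := by
          apply e.injective
          rw [map_one]
          change g (v⁻¹ * w) = 1
          rw [map_mul, map_inv, hvw, inv_mul_cancel]
        exact (QuotientGroup.eq_one_iff _).1 h3
      have h4 : v * (v⁻¹ * w) ∈ Subgroup.normalClosure (insert c R) :=
        mul_mem (Subgroup.normalClosure_mono (by simp) hv)
          (Subgroup.normalClosure_mono (Set.subset_insert c R) h2)
      rwa [mul_inv_cancel_left] at h4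
    · refine Subgroup.normalClosure_le_normal ?_
      intro r hr
      rw [SetLike.mem_coe, MonoidHom.mem_ker, MonoidHom.comp_apply, QuotientGroup.mk'_apply,
        QuotientGroup.eq_one_iff]
      rcases Set.mem_insert_iff.1 hr with rfl | hr'
      · exact hc
      · have : g r = 1 := by
          simp [hg, PresentedGroup.one_of_mem hr']
        rw [this]; exact one_mem N
  exact ⟨(QuotientGroup.quotientMulEquivOfEq hker.symm).trans
    (QuotientGroup.quotientKerEquivOfSurjective ((QuotientGroup.mk' N).comp g)
      ((QuotientGroup.mk'_surjective N).comp hgs))⟩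

end CfsgLib.SpFourPres
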